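import Cfsg.Agent.H56.Wei.Defs

/-!
# 3/2-generation from a torus with trivial overgroups (helper56)

`gen_of_over` : if `x ∈ L` (simple, `C_G(L) = 1`) has only the overgroups in `N_L(⟨x⟩)` and `⟨x⟩` is a Hall subgroup of its
normaliser, then every `g ≠ 1` generates with some conjugate of `x` a subgroup containing `L`.
-/

set_option autoImplicit false

namespace Cfsg.Agent.H56.Wei

open Subgroup Cfsg.Agent.OrdDiv

theorem Over.conj {T : Type*} [Group T] {x : T} (h : Over x (fun _ => False)) (l : T) :
    ∀ H : Subgroup T, l * x * l⁻¹ ∈ H → H ≠ ⊤ → H ≤ normalizer (zpowers (l * x * l⁻¹) : Set T) := by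
  intro H hx hH
  set φ : T ≃* T := MulAut.conj l with hφ
  have h1 : x ∈ H.comap φ.toMonoidHom := by
    rw [mem_comap]
    exact hx
  have h2 : H.comap φ.toMonoidHom ≠ ⊤ := by
    intro h3
    apply hH
    rw [eq_top_iff]
    intro y _
    have h4 : φ.symm y ∈ H.comap φ.toMonoidHom := by rw [h3]; exact mem_top _
    rw [mem_comap] at h4
    simpa using h4
  rcases h _ h1 h2 with h3 | ⟨S, _, _, _, _, _, g, hg, -⟩
  · intro y hy
    have h4 : φ.symm y ∈ H.comap φ.toMonoidHom := by
      rw [mem_comap]
      simpa using hy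
    have h5 := h3 h4
    rw [mem_normalizer_iff] at h5 ⊢
    have key : ∀ a : T, a ∈ zpowers x ↔ l * a * l⁻¹ ∈ zpowers (l * x * l⁻¹) := by
      intro a
      constructor
      · rintro ⟨k, rfl⟩
        exact ⟨k, by simp only; rw [conj_zpow]⟩
      · rintro ⟨k, hk⟩
        simp only at hk
        rw [conj_zpow] at hk
        exact ⟨k, by simpa using hk⟩
    intro a
    have h6 := h5 (l⁻¹ * a * l)
    rw [key, key] at h6
    have e1 : l * (l⁻¹ * a * l) * l⁻¹ = a := by group
    have e2 : l * (φ.symm y * (l⁻¹ * a * l) * (φ.symm y)⁻¹) * l⁻¹ = y * a * y⁻¹ := by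
      have e3 : φ.symm y = l⁻¹ * y * l := by simp [hφ]
      rw [e3]; group
    rw [e1, e2] at h6
    exact h6
  · exact hg.elim

/-- elements of order `m` of a group with a normal subgroup of order `m` prime to its index -/
theorem mem_of_orderOf {T : Type*} [Group T] [Finite T] {A N : Subgroup T} (hA : A ≤ N) (hn : N ≤ normalizer (A : Set T))
    (hc : Nat.Coprime (Nat.card A) (A.relIndex N)) {y : T} (hy : y ∈ N) (ho : orderOf y ∣ Nat.card A) : y ∈ A := by
  have : (A.subgroupOf N).Normal := by
    rw [normal_subgroupOf_iff_le_normalizer hA]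
    exact hn
  have h1 : (QuotientGroup.mk' (A.subgroupOf N)) ⟨y, hy⟩ = 1 := by
    rw [← orderOf_eq_one_iff]
    apply Nat.eq_one_of_dvd_coprimes hc
    · exact (orderOf_map_dvd _ _).trans (by rwa [orderOf_mk])
    · exact orderOf_dvd_natCard _
  rw [QuotientGroup.mk'_apply, QuotientGroup.eq_one_iff, mem_subgroupOf] at h1
  exact h1

theorem gen_of_over {G : Type*} [Group G] [Finite G] (L : Subgroup G) [hL : L.Normal] (hs : IsSimpleGroup ↥L)
    (hna : ¬ IsMulCommutative ↥L) (hc : centralizer (L : Set G) = ⊥) (x : L) (hx : Over x (fun _ => False)) (hx1 : x ≠ 1)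
    (hcop : Nat.Coprime (orderOf x) ((zpowers x).relIndex (normalizer (zpowers x : Set L)))) (g : G) (hg : g ≠ 1) :
    ∃ y : G, L ≤ closure ({y, g} : Set G) := by
  by_contra hcon
  push Not at hcon
  -- `g` normalises every conjugate of `⟨x⟩`
  have key : ∀ l : L, g ∈ normalizer (zpowers ((l : G) * x * (l : G)⁻¹) : Set G) := by
    intro l
    set y : L := l * x * l⁻¹ with hy
    set C := closure ({(y : G), g} : Set G) with hC
    have hyC : (y : G) ∈ C := subset_closure (by simp)
    have hgC : g ∈ C := subset_closure (by simp)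
    set H : Subgroup L := C.subgroupOf L with hH
    have h1 : H ≠ ⊤ := by
      intro h2
      apply hcon y
      rw [← hC]
      rwa [hH, subgroupOf_eq_top] at h2
    have h2 : y ∈ H := by rw [hH, mem_subgroupOf]; exact hyC
    have h3 := hx.conj l H h2 h1
    -- the conjugate of `y` under `g`
    have hyg : ∀ n : ℕ, g ^ n * (y : G) * (g ^ n)⁻¹ ∈ L := fun n => hL.conj_mem _ y.2 _
    have h4 : (⟨g * (y : G) * g⁻¹, hL.conj_mem _ y.2 _⟩ : L) ∈ H := by
      rw [hH, mem_subgroupOf]
      exact mul_mem (mul_mem hgC hyC) (inv_mem hgC)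
    have hoy : orderOf y = orderOf x := by
      rw [hy, ← MulAut.conj_apply]
      exact (MulAut.conj l).orderOf_eq x
    have hcop' : Nat.Coprime (Nat.card (zpowers y)) ((zpowers y).relIndex (normalizer (zpowers y : Set L))) := by
      rw [Nat.card_zpowers, hoy]
      have h5 : (zpowers y).relIndex (normalizer (zpowers y : Set L)) =
          (zpowers x).relIndex (normalizer (zpowers x : Set L)) := by
        have e1 : zpowers y = (zpowers x).map (MulAut.conj l).toMonoidHom := by
          rw [MonoidHom.map_zpowers]; rfl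
        have e2 : normalizer (zpowers y : Set L) = (normalizer (zpowers x : Set L)).map (MulAut.conj l).toMonoidHom := by
          rw [e1]
          exact (map_equiv_normalizer_eq _ _).symm
        rw [e2, e1, relIndex_map_map_of_injective _ _ (MulAut.conj l).injective]
      rw [h5]
      exact hcop
    have h5 : (⟨g * (y : G) * g⁻¹, hL.conj_mem _ y.2 _⟩ : L) ∈ zpowers y := by
      refine mem_of_orderOf (le_normalizer) le_rfl hcop' (h3 h4) ?_
      rw [Nat.card_zpowers]
      apply dvd_of_eq
      rw [orderOf_mk, ← MulAut.conj_apply, (MulAut.conj g).orderOf_eq, orderOf_coe]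
    have h6 : g * (y : G) * g⁻¹ ∈ zpowers (y : G) := by
      obtain ⟨k, hk⟩ := h5
      exact ⟨k, congrArg Subtype.val hk⟩
    have h7 : (zpowers (y : G)).map (MulAut.conj g).toMonoidHom ≤ zpowers (y : G) := by
      rw [MonoidHom.map_zpowers, zpowers_le]
      exact h6
    have h8 : (zpowers (y : G)).map (MulAut.conj g).toMonoidHom = zpowers (y : G) := by
      apply eq_of_le_of_card_ge h7
      rw [Nat.card_congr ((zpowers (y : G)).equivMapOfInjective (MulAut.conj g).toMonoidHom
        (MulAut.conj g).injective).toEquiv]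
    have h9 : (zpowers ((l : G) * x * (l : G)⁻¹)) = zpowers (y : G) := rfl
    rw [h9, mem_normalizer_iff]
    intro a
    constructor
    · rintro ⟨k, rfl⟩
      simp only
      rw [← conj_zpow]
      exact zpow_mem h6 k
    · intro ha
      rw [← h8] at ha
      obtain ⟨b, hb, hba⟩ := ha
      have : b = a := (MulAut.conj g).injective hba
      rwa [← this]
  -- the intersection of the normalisers
  set K : Subgroup G := ⨅ l : L, normalizer (zpowers ((l : G) * x * (l : G)⁻¹) : Set G) with hK
  have hgK : g ∈ K := by rw [hK, mem_iInf]; exact key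
  have hLK : ∀ l ∈ L, ∀ k ∈ K, l * k * l⁻¹ ∈ K := by
    intro l hl k hk
    rw [hK, mem_iInf] at hk ⊢
    intro m
    have h1 := hk (⟨l, hl⟩⁻¹ * m)
    rw [mem_normalizer_iff] at h1 ⊢
    have key2 : ∀ a : G, a ∈ zpowers (((⟨l, hl⟩⁻¹ * m : L) : G) * x * ((⟨l, hl⟩⁻¹ * m : L) : G)⁻¹) ↔
        l * a * l⁻¹ ∈ zpowers ((m : G) * x * (m : G)⁻¹) := by
      intro a
      have e0 : ((⟨l, hl⟩⁻¹ * m : L) : G) = l⁻¹ * m := rfl
      rw [e0]
      constructor
      · rintro ⟨j, rfl⟩
        refine ⟨j, ?_⟩
        simp only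
        rw [conj_zpow, conj_zpow]
        group
      · rintro ⟨j, hj⟩
        simp only at hj
        refine ⟨j, ?_⟩
        simp only
        rw [conj_zpow] at hj ⊢
        have : a = l⁻¹ * (l * a * l⁻¹) * l := by group
        rw [this, ← hj]
        group
    intro a
    have h2 := h1 (l⁻¹ * a * l)
    rw [key2, key2] at h2
    have e1 : l * (l⁻¹ * a * l) * l⁻¹ = a := by group
    have e2 : l * (k * (l⁻¹ * a * l) * k⁻¹) * l⁻¹ = l * k * l⁻¹ * a * (l * k * l⁻¹)⁻¹ := by group
    rw [e1, e2] at h2
    exact h2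
  have hKL : K ⊓ L = ⊥ := by
    have hn : (K.subgroupOf L).Normal := by
      constructor
      intro k hk l
      rw [mem_subgroupOf] at hk ⊢
      exact hLK l l.2 _ hk
    rcases hs.eq_bot_or_eq_top_of_normal _ hn with h1 | h1
    · rw [← inf_comm, inf_comm, subgroupOf_eq_bot] at *
      rw [← disjoint_iff]
      exact h1
    · exfalso
      have h2 : (zpowers x).Normal := by
        constructor
        rintro _ ⟨k, rfl⟩ m
        have h3 : (m : G) ∈ K := by
          have : m ∈ K.subgroupOf L := by rw [h1]; exact mem_top _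
          rwa [mem_subgroupOf] at this
        rw [hK, mem_iInf] at h3
        have h4 := (mem_normalizer_iff.1 (h3 1) ((x : G) ^ k)).1 (by
          simp only [OneMemClass.coe_one, one_mul, inv_one, mul_one]
          exact ⟨k, rfl⟩)
        simp only [OneMemClass.coe_one, one_mul, inv_one, mul_one] at h4
        obtain ⟨j, hj⟩ := h4
        refine ⟨j, Subtype.ext ?_⟩
        simpa using hj
      rcases hs.eq_bot_or_eq_top_of_normal _ h2 with h3 | h3
      · exact hx1 (zpowers_eq_bot.1 h3)
      · apply hna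
        have h4 : IsCyclic ↥L := by
          have : IsCyclic (⊤ : Subgroup L) := by rw [← h3]; infer_instance
          exact isCyclic_of_surjective (Subgroup.topEquiv : _ ≃* L).toMonoidHom Subgroup.topEquiv.surjective
        let _ := IsCyclic.commGroup (α := L)
        rw [isMulCommutative_iff]
        exact fun a b => mul_comm a b
  apply hg
  have h1 : g ∈ centralizer (L : Set G) := by
    rw [mem_centralizer_iff]
    intro l hl
    have h2 : l * g * l⁻¹ * g⁻¹ ∈ K ⊓ L := by
      refine mem_inf.2 ⟨mul_mem (hLK l hl g hgK) (inv_mem hgK), ?_⟩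
      have e1 : l * g * l⁻¹ * g⁻¹ = l * (g * l⁻¹ * g⁻¹) := by group
      rw [e1]
      exact mul_mem hl (hL.conj_mem _ (inv_mem hl) g)
    rw [hKL, mem_bot] at h2
    rw [mul_inv_eq_one, mul_inv_eq_iff_eq_mul] at h2
    exact h2
  rw [hc, mem_bot] at h1
  exact h1

end Cfsg.Agent.H56.Wei
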